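import Cfsg.Agent.EqOrd.Basic
import Cfsg.Agent.PLocal.SL2Elts
import Cfsg.Agent.Class.SL2Quat
import Cfsg.Agent.Class.SmallIso
import Cfsg.Agent.Class.PGL2Subfield
import Cfsg.Agent.S0813

/-! Almost simple groups over `PSL(2, q)` with equal-order `p`-subgroups conjugate. -/

set_option autoImplicit false
set_option linter.unusedSectionVars false
set_option linter.unusedVariables false

namespace Cfsg.Agent.EqOrd

open Cfsg Subgroup PLocal PLocal.Amb PLocal.SL2Nat Class.Dickson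
open scoped MatrixGroups

variable {G : Type*} [Group G] [Finite G] {F : Type*} [Field F] [Fintype F]

theorem solvable_borel : Group.IsSolvable ↥𝐍[Up F] := by
  have h0 : ∀ g : ↥𝐍[Up F], g.1.1 0 0 * g.1.1 1 1 = 1 := fun g => by
    have := det_eq g.1
    rwa [mem_normalizer_Up.1 g.2, mul_zero, sub_zero] at this
  let φ : ↥𝐍[Up F] →* Fˣ := MonoidHom.mk'
    (fun g => Units.mk0 (g.1.1 0 0) (left_ne_zero_of_mul_eq_one (h0 g))) fun g h =>
      Units.ext (by simp [mul_apply', mem_normalizer_Up.1 h.2])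
  have : Group.IsSolvable (Up F) := Group.isSolvable_of_comm (by
    rintro ⟨_, a, rfl⟩ ⟨_, b, rfl⟩
    exact Subtype.ext (by simp [← uu_add, add_comm]))
  refine Group.isSolvable_of_ker_le_range (inclusion le_normalizer) φ fun g hg => ?_
  have h1 : g.1.1 0 0 = 1 := congrArg Units.val (MonoidHom.mem_ker.1 hg)
  have h2 := h0 g
  rw [h1, one_mul] at h2
  exact ⟨⟨uu (g.1.1 0 1), uu_mem _⟩, Subtype.ext (sl_ext (by simp [coe_uu, h1]) (by simp [coe_uu])
    (by simp [coe_uu, mem_normalizer_Up.1 g.2]) (by simp [coe_uu, h2]))⟩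

theorem center_entry {z : SL(2, F)} (hz : z ∈ center SL(2, F)) : z.1 1 0 = 0 ∧ z.1 0 1 = 0 := by
  obtain ⟨r, -, h⟩ := Matrix.SpecialLinearGroup.mem_center_iff.1 hz
  rw [← h]
  simp

theorem solvable_norm : Group.IsSolvable ↥𝐍[(Up F).map (pslMk F)] := by
  have := solvable_borel (F := F)
  have h : 𝐍[(Up F).map (pslMk F)] ≤ (𝐍[Up F]).map (pslMk F) := fun y hy => by
    obtain ⟨g, rfl⟩ := QuotientGroup.mk'_surjective _ y
    obtain ⟨_, ⟨a, rfl⟩, e⟩ := conj_mem_of_mem_normalizer hy (mem_map_of_mem _ (uu_mem 1))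
    refine mem_map_of_mem _ (mem_normalizer_Up.2 ?_)
    rw [← map_inv, ← map_mul, ← map_mul] at e
    have h1 := (center_entry (QuotientGroup.eq.1 e)).1
    simp only [mul_apply', inv_apply₁₀, inv_apply₁₁, inv_apply₀₀, coe_uu] at h1
    simp at h1
    have : g.1 1 0 ^ 2 = 0 := by linear_combination -h1
    exact pow_eq_zero_iff two_ne_zero |>.1 this
  have : Group.IsSolvable ↥((𝐍[Up F]).map (pslMk F)) :=
    Group.isSolvable_of_surjective ((pslMk F).subgroupMap_surjective _)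
  exact Group.isSolvable_of_isSolvable_injective (inclusion_injective h)

theorem card_Ubar : Nat.card ((Up F).map (pslMk F)) = Fintype.card F := by
  have h := Grp.card_map_mul_card_inf_ker (pslMk F) (Up F)
  have h1 : Up F ⊓ (pslMk F).ker = ⊥ := by
    rw [eq_bot_iff, QuotientGroup.ker_mk']
    rintro _ ⟨⟨a, rfl⟩, hz⟩
    have : a = 0 := by simpa [coe_uu] using (center_entry hz).2
    rw [this, uu_zero]; exact one_mem _
  rwa [h1, Subgroup.card_bot, mul_one, card_Up, Nat.card_eq_fintype_card (α := F)] at h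

theorem psl_exp (hD : DAll G) (ι : PSL(2, F) →* G) (hι : Function.Injective ι) [ι.range.Normal]
    (ho : Odd ι.range.index) {r f : ℕ} [hr : Fact r.Prime] (hF : Fintype.card F = r ^ f)
    (hf : 3 ≤ f) : f = 3 ∨ (f = 5 ∧ r = 2 ∧ 5 ∣ Nat.card G) := by
  have : CharP F r := charP_of_card_eq_prime_pow hF
  set U := ((Up F).map (pslMk F)).map ι with hU
  have hc : Nat.card U = r ^ f := by rw [Subgroup.card_map_of_injective hι, card_Ubar, hF]
  have hel : IsElementaryAbelian r U := by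
    refine ⟨⟨⟨?_⟩⟩, ?_⟩
    · rintro ⟨_, _, ⟨_, ⟨a, rfl⟩, rfl⟩, rfl⟩ ⟨_, _, ⟨_, ⟨b, rfl⟩, rfl⟩, rfl⟩
      exact Subtype.ext (by simp only [coe_mul, ← map_mul, ← uu_add, add_comm])
    · rintro _ ⟨_, ⟨_, ⟨a, rfl⟩, rfl⟩, rfl⟩
      rw [← map_pow, ← map_pow, uu_pow, CharP.cast_eq_zero, zero_mul, uu_zero, map_one, map_one]
  have hS : IsSyl r U ι.range := by
    have := ((isSyl_Up (F := F) r).map (pslMk F)).map ι
    rwa [map_top_of_surjective _ (QuotientGroup.mk'_surjective _), ← MonoidHom.range_eq_map] at this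
  have h8 : r ^ 3 ≤ r ^ f := Nat.pow_le_pow_right hr.out.pos hf
  have h2 := hr.out.two_le
  obtain ⟨P, hP⟩ := hS.pgrp.exists_le_sylow
  have hPU : IsSyl r U ⊤ := by
    rcases S4020.result hD P with h1 | h1 | ⟨⟨e⟩⟩
    · have := isCyclic_of_le hP
      have h3 := Nat.le_of_dvd hr.out.pos ((IsCyclic.exponent_eq_card (α := U)).symm.dvd.trans
        (Monoid.exponent_dvd_of_forall_pow_eq_one fun x => Subtype.ext (hel.2 x x.2)))
      have : r ^ 1 < r ^ 3 := Nat.pow_lt_pow_right h2 (by norm_num)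
      rw [pow_one] at this
      omega
    · rw [← hS.eq P.isPGroup' hP fun x hx => (hD r hr.out).mem _
        ((hc ▸ dvd_pow_self r (by omega)).trans (card_dvd_of_le hS.le)) (h1.2 x hx)]
      exact isSyl_top P
    · have : 2 ^ 3 ≤ r ^ 3 := Nat.pow_le_pow_left h2 3
      rw [eq_of_le_of_card_ge hP (by
        rw [Nat.card_congr e.toEquiv, Nat.card_eq_fintype_card, QuaternionGroup.card]; omega)]
      exact isSyl_top P
  have := solvable_norm (F := F)
  have := S0205.result (G := G ⧸ ι.range) ho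
  have : Group.IsSolvable ↥𝐍[U] := by
    refine Group.isSolvable_of_ker_le_range (G' := ↥𝐍[(Up F).map (pslMk F)])
      ((ι.comp (Subgroup.subtype _)).codRestrict _ fun y => cj_eq_iff.1 (by
        rw [hU]; exact (map_cj ι _ _).symm.trans (congrArg _ (cj_eq_iff.2 y.2))))
      ((QuotientGroup.mk' ι.range).comp 𝐍[U].subtype) fun x hx => ?_
    obtain ⟨y, hy⟩ : (x : G) ∈ ι.range := (QuotientGroup.eq_one_iff _).1 hx
    refine ⟨⟨y, cj_eq_iff.1 (map_injective hι ?_)⟩, Subtype.ext hy⟩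
    rw [map_cj, hy]
    exact cj_eq_iff.2 x.2
  rcases (hD r hr.out).aff hPU hf hel hc with h | ⟨h1, h2, ⟨e⟩⟩
  · exact Or.inl h.1
  · refine Or.inr ⟨h1, h2, Dvd.dvd.trans ?_
      ((card_quotient_dvd_card (pPrimeCore r _)).trans (card_subgroup_dvd_card 𝐍[U]))⟩
    rw [Nat.card_congr e.toEquiv, card_semiaffine, (card_galois 2 5 (by norm_num)).2.2]
    exact dvd_mul_left _ _

theorem psl_case (hD : DAll G) (ι : PSL(2, F) →* G) (hι : Function.Injective ι) [ι.range.Normal]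
    [IsSimpleGroup ι.range] (hna : ¬ IsMulCommutative ι.range) (hC : 𝐂[ι.range] = ⊥)
    (ho : Odd ι.range.index) (h3 : 3 < Fintype.card F)
    (h8 : Fintype.card F % 8 = 0 ∨ Fintype.card F % 8 = 3 ∨ Fintype.card F % 8 = 5) :
    (Fintype.card F = 2 ^ 3 ∧ Nonempty (G ≃* PSL(2, F))) ∨
    (Fintype.card F = 2 ^ 5 ∧ Nonempty (G ≃* MulAut PSL(2, F))) ∨
    ∃ p : ℕ, p.Prime ∧ (p % 8 = 3 ∨ p % 8 = 5) ∧ (Fintype.card F = p ∨ Fintype.card F = p ^ 3) ∧
      Nonempty (G ≃* PSL(2, F)) := by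
  obtain ⟨r, hr⟩ := CharP.exists F
  obtain ⟨⟨f, hf⟩, hr', hF⟩ := FiniteField.card F r
  simp only [PNat.mk_coe] at hF
  have := Fact.mk hr'
  let e := MonoidHom.ofInjective hι
  let ψ : G →* MulAut PSL(2, F) := (MulAut.congr e.symm).toMonoidHom.comp MulAut.conjNormal
  have hψ : Function.Injective ψ :=
    (MulAut.congr e.symm).injective.comp (conjNormal_injective _ hC)
  have hA := S0813.result r f hf hF 2 le_rfl (fun _ => by omega)
  have hN := Class.gcd_mul_card_PSL2 (F := F)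
  rw [if_pos rfl, one_mul, card_PGL2, Nat.card_eq_fintype_card (α := F), ← hN] at hA
  have hG : Nat.card G = ι.range.index * Nat.card PSL(2, F) := by
    rw [Nat.card_congr e.toEquiv, index_mul_card]
  have hd := Subgroup.card_dvd_of_injective ψ hψ
  rw [hA, hG, ← mul_assoc] at hd
  have hi : ι.range.index ∣ f := (Nat.Coprime.coprime_dvd_right (Nat.gcd_dvd_left _ _)
    (Nat.coprime_two_right.2 ho)).dvd_of_dvd_mul_right (Nat.dvd_of_mul_dvd_mul_right Nat.card_pos hd)
  have iso : ι.range.index = 1 → Nonempty (G ≃* PSL(2, F)) := fun h =>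
    ⟨(MulEquiv.ofBijective ι ⟨hι, MonoidHom.range_eq_top.1 (index_eq_one.1 h)⟩).symm⟩
  have hr8 : r = 2 ∨ r % 8 = 1 ∨ r % 8 = 3 ∨ r % 8 = 5 ∨ r % 8 = 7 := by
    have := hr'.eq_two_or_odd
    omega
  by_cases h1 : f = 1
  · subst h1
    rw [pow_one] at hF
    exact Or.inr (Or.inr ⟨r, hr', by omega, Or.inl hF, iso (Nat.dvd_one.1 hi)⟩)
  by_cases h2 : f = 2
  · subst h2
    rw [hF] at h8
    rcases hr8 with h | h | h | h | h <;> simp [Nat.pow_mod, h] at h8
  rcases psl_exp hD ι hι ho hF (by omega) with rfl | ⟨rfl, rfl, h5⟩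
  · have h4 : ι.range.index = 1 := by
      refine ((Nat.dvd_prime Nat.prime_three).1 hi).resolve_right fun h => ?_
      have : Fact (Nat.Prime 3) := ⟨Nat.prime_three⟩
      have h6 := commutator_eq_of_prime _ hna h
      refine hD.not_dvd_index (p := 3) (by norm_num) ?_ (by rw [h6, h])
      rw [h6, ← Nat.card_congr e.toEquiv]
      refine (Nat.Coprime.dvd_mul_left (k := 3) (m := Nat.gcd 2 (Fintype.card F - 1))
        (Nat.Coprime.coprime_dvd_right (Nat.gcd_dvd_left _ _) (by norm_num))).1 ?_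
      rw [hN]
      obtain ⟨x, hx⟩ : ∃ x, Fintype.card F = x + 1 := ⟨_, (Nat.sub_add_cancel (by omega)).symm⟩
      rw [hx, show (x + 1) ^ 2 - 1 = x * (x + 2) by
        rw [Nat.sub_eq_iff_eq_add (Nat.one_le_pow _ _ (by omega))]; ring]
      have : x % 3 = 0 ∨ x % 3 = 1 ∨ x % 3 = 2 := by omega
      rcases this with h | h | h <;> simp [Nat.dvd_iff_mod_eq_zero, Nat.mul_mod, Nat.add_mod, h]
    by_cases h : r = 2
    · exact Or.inl ⟨h ▸ hF, iso h4⟩
    refine Or.inr (Or.inr ⟨r, hr', ?_, Or.inr hF, iso h4⟩)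
    rw [hF] at h8
    rcases hr8 with h | h | h | h | h <;> simp_all [Nat.pow_mod]
  · rw [hF] at hN hA
    norm_num at hN hA
    rcases (Nat.dvd_prime (by norm_num)).1 hi with h | h
    · rw [hG, h, hN] at h5
      norm_num at h5
    · exact Or.inr (Or.inl ⟨hF, ⟨MulEquiv.ofBijective ψ
        ((Nat.bijective_iff_injective_and_card ψ).2 ⟨hψ, by rw [hG, h, hA]⟩)⟩⟩)

end Cfsg.Agent.EqOrd
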